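import Mathlib
import Cfsg.Agent.H777.Ore.Base
import Cfsg.Agent.H721.SR.Base
import Cfsg.Agent.H262.Rg.Powers
import Cfsg.Agent.Blocks.ClassScalar

/-!
# S4171, sporadic half: the density criterion (helper90)

`A` a union of classes, closed under inversion, `α ≤ |A| / |G|`, `r (1 - α) < α`.
If `Re χ(g) ≥ - r χ(1)` for all irreducible `χ ≠ 1` then `g ∈ A A` (`exists_of_ratio`).
With `A` = the strongly real elements: `g` is a product of four elements with square one.

* `i4_of_ratio`, `i4_of_norm` : the criterion;  `inv4_of_half` : `|G| < 2 |A|` is enough for all `g`;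
* `i4_of_cent` : `|C(g)| (1 - α)² < (α d)²`, `d` a lower bound for the nontrivial degrees;
* `le_dens` : `∑ 1 / m_i ≤ |A| / |G|` for pairwise non conjugate strongly real elements with `|C(g_i)| ≤ m_i`;
  `le_dens_sets` the same for disjoint subsets;
* `card_fib` : the elements with `p`-part conjugate to `y` where `C(y) = ⟨y⟩ × S`, `p ∤ |S|`: their number is `|G| / p`.
-/

set_option autoImplicit false
set_option linter.unusedSectionVars false

namespace Cfsg.Agent.H90.Four

open Cfsg Cfsg.Agent.Characters Cfsg.Agent.H514.DP Subgroup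
open Cfsg.Agent.H262.Rg.Engine Cfsg.Agent.H721.SR Cfsg.Agent.H777.Ore
open scoped ComplexConjugate

universe u

section Crit

variable {G : Type u} [Group G]

/-- the strongly real elements -/
def SRS (G : Type u) [Group G] : Set G := {g | SR g}

theorem SR.inv' {g : G} (h : SR g) : SR g⁻¹ := by
  obtain ⟨t, h1, h2⟩ := h
  refine ⟨t, h1, ?_⟩
  rw [← conj_inv, h2]

theorem srs_normal : Cfsg.Agent.H262.Rg.Engine.Normal (SRS G) := fun _ hg x => SR.conj hg x

theorem srs_inv : ∀ a ∈ SRS G, a⁻¹ ∈ SRS G := fun _ ha => SR.inv' ha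

/-- a strongly real element is a product of two elements with square one -/
theorem SR.two {g : G} (h : SR g) : ∃ s t : G, s * s = 1 ∧ t * t = 1 ∧ g = s * t := by
  obtain ⟨t, h1, h2⟩ := h
  refine ⟨t, t * g, h1, ?_, by rw [← mul_assoc, h1, one_mul]⟩
  calc t * g * (t * g) = (t * g * t⁻¹) * (t * t) * g := by group
    _ = 1 := by rw [h2, h1]; simp

theorem i4_of_mul {x y : G} (hx : SR x) (hy : SR y) : I4 (x * y) := by
  obtain ⟨s, t, h1, h2, rfl⟩ := SR.two hx
  obtain ⟨s', t', h3, h4, rfl⟩ := SR.two hy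
  exact ⟨s, t, s', t', h1, h2, h3, h4, by group⟩

theorem i4_of_sr {x : G} (hx : SR x) : I4 x := by
  have := i4_of_mul hx sr_one
  rwa [mul_one] at this

theorem inv4_of_sr (h : ∀ g : G, SR g) : Inv4 G := fun g => i4_of_sr (h g)

variable [Fintype G]

theorem exists_of_pos {A : Set G} (hinv : ∀ a ∈ A, a⁻¹ ∈ A) {g : G} (h : 0 < N A g) :
    ∃ x ∈ A, ∃ y ∈ A, g = x * y := by
  unfold N at h
  obtain ⟨y, h1, h2⟩ := (Nat.card_pos_iff.1 h).1
  exact ⟨g * y, h1, y⁻¹, hinv _ h2, by group⟩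

theorem exists_of_ratio {A : Set G} (hA : Cfsg.Agent.H262.Rg.Engine.Normal A) (hinv : ∀ a ∈ A, a⁻¹ ∈ A) {α r : ℝ} (hα0 : 0 < α)
    (hα : α ≤ dens A) (hr0 : 0 ≤ r) (hr : r * (1 - α) < α) {g : G}
    (hg : ∀ χ : G → ℂ, IsIrrCharacter G χ → χ ≠ 1 → -r ≤ (χ g / χ 1).re) :
    ∃ x ∈ A, ∃ y ∈ A, g = x * y := by
  classical
  have := Core.finite_irr (G := G)
  have := Fintype.ofFinite (IrrCharacter G)
  have hG : (0 : ℝ) < Nat.card G := by exact_mod_cast Nat.card_pos
  have hAG : (Nat.card A : ℝ) = Nat.card G * dens A := by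
    unfold dens
    field_simp
  refine exists_of_pos hinv ?_
  have key : (0 : ℝ) < N A g := by
    rw [N_eq hA g]
    refine mul_pos hG ?_
    set one : IrrCharacter G := ⟨1, Core.isIrr_one⟩ with hone
    rw [← Finset.add_sum_erase _ _ (Finset.mem_univ one)]
    have e0 : ‖classInner (ind A) (one : G → ℂ)‖ ^ 2 * ((one : G → ℂ) g / (one : G → ℂ) 1).re = dens A ^ 2 := by
      have e2 : classInner (ind A) (one : G → ℂ) = (Nat.card A : ℂ) / Nat.card G := inner_one A
      rw [e2]
      have e3 : ((one : G → ℂ) g / (one : G → ℂ) 1).re = 1 := by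
        simp [hone]
      rw [e3, mul_one]
      unfold dens
      rw [norm_div, Complex.norm_natCast, Complex.norm_natCast]
    rw [e0]
    have h1 : ∀ χ ∈ Finset.univ.erase one, ‖classInner (ind A) (χ : G → ℂ)‖ ^ 2 * (-r) ≤
        ‖classInner (ind A) (χ : G → ℂ)‖ ^ 2 * ((χ : G → ℂ) g / (χ : G → ℂ) 1).re := by
      intro χ hχ
      refine mul_le_mul_of_nonneg_left (hg _ χ.2 fun h => ?_) (by positivity)
      exact (Finset.mem_erase.1 hχ).1 (Subtype.ext h)
    have h2 := Finset.sum_le_sum h1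
    rw [← Finset.sum_mul] at h2
    have h3 := sum_inner_sq (ind_class hA)
    rw [sum_ind_sq, hAG] at h3
    have h4 := mul_left_cancel₀ hG.ne' h3
    rw [← Finset.add_sum_erase _ _ (Finset.mem_univ one)] at h4
    have e1 : ‖classInner (ind A) (one : G → ℂ)‖ ^ 2 = dens A ^ 2 := by
      have e2 : classInner (ind A) (one : G → ℂ) = (Nat.card A : ℂ) / Nat.card G := inner_one A
      rw [e2]
      unfold dens
      rw [norm_div, Complex.norm_natCast, Complex.norm_natCast]
    rw [e1] at h4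
    have h5 : ∑ χ ∈ Finset.univ.erase one, ‖classInner (ind A) (χ : G → ℂ)‖ ^ 2 = dens A - dens A ^ 2 := by linarith
    rw [h5] at h2
    have h6 : dens A ≤ 1 := by
      unfold dens
      rw [div_le_one hG]
      exact_mod_cast Nat.card_le_card_of_injective (fun a : A => (a : G)) Subtype.val_injective
    nlinarith [mul_nonneg hr0 (sub_nonneg.2 hα), mul_nonneg (sub_nonneg.2 hα) (sub_nonneg.2 h6)]
  exact_mod_cast key

/-- **The density criterion** -/
theorem i4_of_ratio {α r : ℝ} (hα0 : 0 < α) (hα : α ≤ dens (SRS G)) (hr0 : 0 ≤ r) (hr : r * (1 - α) < α) {g : G}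
    (hg : ∀ χ : G → ℂ, IsIrrCharacter G χ → χ ≠ 1 → -r ≤ (χ g / χ 1).re) : I4 g := by
  obtain ⟨x, hx, y, hy, rfl⟩ := exists_of_ratio srs_normal srs_inv hα0 hα hr0 hr hg
  exact i4_of_mul hx hy

theorem re_ge_of_norm {χ : G → ℂ} {g : G} {r : ℝ} (h : ‖χ g‖ ≤ r * ‖χ 1‖) (h1 : χ 1 ≠ 0) : -r ≤ (χ g / χ 1).re := by
  have h2 : |(χ g / χ 1).re| ≤ ‖χ g / χ 1‖ := Complex.abs_re_le_norm _
  have h3 : ‖χ g / χ 1‖ ≤ r := by
    rw [norm_div, div_le_iff₀ (norm_pos_iff.2 h1)]
    exact h
  exact (neg_le_neg (h2.trans h3)).trans (neg_abs_le _)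

theorem i4_of_norm {α r : ℝ} (hα0 : 0 < α) (hα : α ≤ dens (SRS G)) (hr0 : 0 ≤ r) (hr : r * (1 - α) < α) {g : G}
    (hg : ∀ χ : G → ℂ, IsIrrCharacter G χ → χ ≠ 1 → ‖χ g‖ ≤ r * ‖χ 1‖) : I4 g :=
  i4_of_ratio hα0 hα hr0 hr fun χ hχ h => re_ge_of_norm (hg χ hχ h) (Core.isIrr_apply_one_ne_zero hχ)

omit [Fintype G] in
/-- more than half of the elements are strongly real -/
theorem inv4_of_half [Finite G] (h : Nat.card G < 2 * Nat.card (SRS G)) : Inv4 G := by
  classical
  have := Fintype.ofFinite G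
  intro g
  by_contra hg
  -- `x ↦ g x⁻¹` maps `A` into its complement
  have h1 : ∀ x : SRS G, g * (x : G)⁻¹ ∈ (SRS G)ᶜ := by
    intro x hx
    refine hg ?_
    have := i4_of_mul hx x.2
    rwa [inv_mul_cancel_right] at this
  have h2 : Nat.card (SRS G) ≤ Nat.card ↥(SRS G)ᶜ :=
    Nat.card_le_card_of_injective (fun x => (⟨g * (x : G)⁻¹, h1 x⟩ : ↥(SRS G)ᶜ)) fun a b hab => by
      have := congrArg Subtype.val hab
      exact Subtype.ext (inv_injective (mul_left_cancel this))
  have h3 : Nat.card (SRS G) + Nat.card ↥(SRS G)ᶜ = Nat.card G := by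
    rw [Nat.card_coe_set_eq, Nat.card_coe_set_eq]
    exact Set.ncard_add_ncard_compl _
  omega

theorem i4_of_cent (hperf : commutator G = ⊤) {α : ℝ} (hα0 : 0 < α) (hα1 : α < 1) (hα : α ≤ dens (SRS G)) {d : ℕ}
    (hd : MinDeg G d) (hd0 : 0 < d) {g : G}
    (hg : (Nat.card (centralizer ({g} : Set G)) : ℝ) * (1 - α) ^ 2 < (α * d) ^ 2) : I4 g := by
  classical
  have := Core.finite_irr (G := G)
  have := Fintype.ofFinite (IrrCharacter G)
  have hd0' : (0 : ℝ) < d := by exact_mod_cast hd0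
  set r : ℝ := √(Nat.card (centralizer ({g} : Set G)) : ℝ) / d with hr
  have hr0 : 0 ≤ r := by positivity
  refine i4_of_norm hα0 hα hr0 ?_ fun χ hχ hne => ?_
  · rw [hr, div_mul_eq_mul_div, div_lt_iff₀ hd0']
    have h1 : 0 < 1 - α := by linarith
    have h2 := Real.sqrt_lt_sqrt (by positivity) hg
    rw [Real.sqrt_mul (by positivity), Real.sqrt_sq h1.le, Real.sqrt_sq (by positivity)] at h2
    exact h2
  · have h2 : χ 1 ≠ 1 := fun h3 => hne (eq_one_of_perf hperf hχ h3)
    obtain ⟨n, hn, hn0, hn1⟩ := MinDeg.le hd hχ h2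
    have h3 := norm_le_sqrt (⟨χ, hχ⟩ : IrrCharacter G) g
    rw [hn1, Complex.norm_natCast, hr, div_mul_eq_mul_div, le_div_iff₀ hd0']
    refine mul_le_mul h3 (by exact_mod_cast hn) hd0'.le (Real.sqrt_nonneg _)

end Crit

section Fib

variable {G : Type u} [Group G] [Finite G]

/-- the conjugates of the elements `y u`, `u ∈ C(y)`, `u ^ s = 1` -/
def Fib (y : G) (s : ℕ) : Set G := {g | ∃ x u : G, y * u = u * y ∧ u ^ s = 1 ∧ g = x * (y * u) * x⁻¹}

/-- the elements of `C(y)` with `u ^ s = 1` -/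
abbrev UU (y : G) (s : ℕ) : Type u := {u : G // y * u = u * y ∧ u ^ s = 1}

theorem exists_inv_mod {p s : ℕ} (hp : p.Prime) (hps : ¬ p ∣ s) : ∃ k m : ℕ, s * k = 1 + p * m := by
  have hc : Nat.Coprime s p := ((Nat.Prime.coprime_iff_not_dvd hp).2 hps).symm
  obtain ⟨k, -, hk⟩ := Nat.exists_mul_mod_eq_one_of_coprime hc hp.one_lt
  refine ⟨k, s * k / p, ?_⟩
  have := Nat.div_add_mod (s * k) p
  rw [hk] at this
  omega

theorem card_uu {p s : ℕ} (hp : p.Prime) {y : G} (hy : orderOf y = p)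
    (hC : Nat.card (centralizer ({y} : Set G)) = p * s) (hps : ¬ p ∣ s) : Nat.card (UU y s) = s := by
  obtain ⟨k, m, hk⟩ := exists_inv_mod hp hps
  have hyC : y ∈ centralizer ({y} : Set G) := mem_centralizer_singleton_iff.2 rfl
  set Y : Subgroup (centralizer ({y} : Set G)) := zpowers ⟨y, hyC⟩ with hY
  have hYc : Y ≤ center _ := by
    rw [hY, zpowers_le, mem_center_iff]
    intro c
    exact Subtype.ext (mem_centralizer_singleton_iff.1 c.2)
  have hYn : Y.Normal := ⟨fun a ha c => by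
    have : c * a * c⁻¹ = a := by rw [mem_center_iff.1 (hYc ha) c, mul_inv_cancel_right]
    rwa [this]⟩
  have hYcard : Nat.card Y = p := by
    rw [hY, Nat.card_zpowers, ← hy]
    exact orderOf_mk y hyC
  have hidx : Nat.card (centralizer ({y} : Set G) ⧸ Y) = s := by
    have h1 := Y.card_eq_card_quotient_mul_card_subgroup
    rw [hYcard, hC, mul_comm p s] at h1
    exact (Nat.eq_of_mul_eq_mul_right hp.pos h1).symm
  have hpow : ∀ c : centralizer ({y} : Set G), c ^ s ∈ Y := by
    intro c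
    rw [← QuotientGroup.eq_one_iff, QuotientGroup.mk_pow, ← hidx]
    exact pow_card_eq_one'
  have hps' : ∀ c : centralizer ({y} : Set G), c ^ (p * s) = 1 := by
    intro c
    rw [← hC]
    exact pow_card_eq_one'
  have hyp : y ^ p = 1 := by rw [← hy]; exact pow_orderOf_eq_one y
  -- the bijection
  have e : Y × UU y s ≃ centralizer ({y} : Set G) := by
    refine Equiv.ofBijective (fun q => ⟨(q.1 : centralizer ({y} : Set G)) * q.2.1, ?_⟩) ⟨?_, ?_⟩
    · refine mul_mem (SetLike.coe_mem _) (mem_centralizer_singleton_iff.2 ?_)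
      exact q.2.2.1.symm
    · rintro ⟨a, u⟩ ⟨b, v⟩ hab
      have h1 : ((a : centralizer ({y} : Set G)) : G) * (u : G) = ((b : centralizer ({y} : Set G)) : G) * (v : G) :=
        congrArg Subtype.val hab
      -- the power `s`
      have hcomm : ∀ (a : Y) (u : UU y s), Commute ((a : centralizer ({y} : Set G)) : G) (u : G) := by
        intro a u
        obtain ⟨i, hi⟩ := mem_zpowers_iff.1 a.2
        have h2 : ((a : centralizer ({y} : Set G)) : G) = y ^ i := by
          rw [← hi]; rfl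
        rw [h2]
        exact (show Commute y (u : G) from u.2.1).zpow_left i
      have h2 : ((a : centralizer ({y} : Set G)) : G) ^ s = ((b : centralizer ({y} : Set G)) : G) ^ s := by
        have h3 := congrArg (fun z => z ^ s) h1
        simp only [(hcomm a u).mul_pow, (hcomm b v).mul_pow, u.2.2, v.2.2, mul_one] at h3
        exact h3
      have hpk : ∀ a : Y, (((a : centralizer ({y} : Set G)) : G) ^ s) ^ k = ((a : centralizer ({y} : Set G)) : G) := by
        intro a
        have h4 : ((a : centralizer ({y} : Set G)) : G) ^ p = 1 := by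
          have h5 : (a : centralizer ({y} : Set G)) ^ p = 1 := by
            have h6 : a ^ Nat.card Y = 1 := pow_card_eq_one'
            rw [hYcard] at h6
            exact congrArg Subtype.val h6
          exact congrArg Subtype.val h5
        rw [← pow_mul, hk, pow_add, pow_one, pow_mul, h4, one_pow, mul_one]
      have h7 : ((a : centralizer ({y} : Set G)) : G) = ((b : centralizer ({y} : Set G)) : G) := by
        rw [← hpk a, h2, hpk b]
      have h8 : a = b := Subtype.ext (Subtype.ext h7)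
      subst h8
      have h9 : (u : G) = v := mul_left_cancel h1
      rw [Subtype.ext h9]
    · intro c
      have h1 : c ^ (s * k) ∈ Y := by rw [pow_mul]; exact Y.pow_mem (hpow c) k
      refine ⟨⟨⟨c ^ (s * k), h1⟩, ⟨((c ^ (p * m) : centralizer ({y} : Set G)) : G)⁻¹, ?_, ?_⟩⟩, ?_⟩
      · have h2 := mem_centralizer_singleton_iff.1 (c ^ (p * m)).2
        exact (show Commute y ((c ^ (p * m) : centralizer ({y} : Set G)) : G) from h2.symm).inv_right
      · rw [inv_pow, inv_eq_one]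
        have h2 : (c ^ (p * m)) ^ s = 1 := by
          rw [← pow_mul, show p * m * s = p * s * m by ring, pow_mul, hps', one_pow]
        exact congrArg Subtype.val h2
      · apply Subtype.ext
        have h3 : c ^ (s * k) * (c ^ (p * m))⁻¹ = c := by
          rw [hk, pow_add, pow_one, mul_inv_cancel_right]
        exact congrArg Subtype.val h3
  have h := Nat.card_congr e
  rw [Nat.card_prod, hYcard, hC] at h
  exact Nat.eq_of_mul_eq_mul_left hp.pos h

/-- **`p |Fib| = |G|`** -/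
theorem card_fib {p s : ℕ} (hp : p.Prime) {y : G} (hy : orderOf y = p)
    (hC : Nat.card (centralizer ({y} : Set G)) = p * s) (hps : ¬ p ∣ s) :
    p * Nat.card (Fib y s) = Nat.card G := by
  classical
  obtain ⟨k, m, hk⟩ := exists_inv_mod hp hps
  have hs : 0 < s := Nat.pos_of_ne_zero fun h => hps (h ▸ dvd_zero _)
  have hyp : y ^ p = 1 := by rw [← hy]; exact pow_orderOf_eq_one y
  have hpart : ∀ x u : G, y * u = u * y → u ^ s = 1 → (x * (y * u) * x⁻¹) ^ (s * k) = x * y * x⁻¹ := by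
    intro x u h1 h2
    rw [conj_pow, (show Commute y u from h1).mul_pow, pow_mul u, h2, one_pow, mul_one, hk, pow_add, pow_one, pow_mul,
      hyp, one_pow, mul_one]
  choose! x0 u0 hx0 using (fun (g : G) (hg : g ∈ Fib y s) => hg)
  have hmem : ∀ x u : G, y * u = u * y → u ^ s = 1 → x * (y * u) * x⁻¹ ∈ Fib y s := fun x u h1 h2 => ⟨x, u, h1, h2, rfl⟩
  have hc : ∀ x u : G, y * u = u * y → u ^ s = 1 → ∀ g, g = x * (y * u) * x⁻¹ →
      (x0 g)⁻¹ * x ∈ centralizer ({y} : Set G) := by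
    intro x u h1 h2 g hg
    have hgF : g ∈ Fib y s := hg ▸ hmem x u h1 h2
    obtain ⟨h3, h4, h5⟩ := hx0 g hgF
    have h6 := hpart x u h1 h2
    have h7 := hpart (x0 g) (u0 g) h3 h4
    rw [← hg] at h6
    rw [← h5, h6] at h7
    rw [mem_centralizer_singleton_iff]
    have h8 : x * y * x⁻¹ = x0 g * y * (x0 g)⁻¹ := h7
    calc (x0 g)⁻¹ * x * y = (x0 g)⁻¹ * (x * y * x⁻¹) * x := by group
      _ = (x0 g)⁻¹ * (x0 g * y * (x0 g)⁻¹) * x := by rw [h8]
      _ = y * ((x0 g)⁻¹ * x) := by group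
  let e : G × UU y s ≃ Fib y s × centralizer ({y} : Set G) :=
    { toFun := fun q => (⟨q.1 * (y * q.2.1) * q.1⁻¹, hmem _ _ q.2.2.1 q.2.2.2⟩,
        ⟨(x0 (q.1 * (y * q.2.1) * q.1⁻¹))⁻¹ * q.1, hc _ _ q.2.2.1 q.2.2.2 _ rfl⟩)
      invFun := fun r => (x0 r.1 * r.2, ⟨(r.2 : G)⁻¹ * u0 r.1 * r.2, by
        obtain ⟨h3, h4, h5⟩ := hx0 r.1 r.1.2
        have h6 := mem_centralizer_singleton_iff.1 r.2.2
        constructor
        · have h7 : Commute y (r.2 : G) := h6.symm
          exact ((h7.inv_right).mul_right h3).mul_right h7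
        · have e1 : (r.2 : G)⁻¹ * u0 r.1 * r.2 = (r.2 : G)⁻¹ * u0 r.1 * ((r.2 : G)⁻¹)⁻¹ := by rw [inv_inv]
          rw [e1, conj_pow, h4]
          group⟩)
      left_inv := by
        rintro ⟨x, u, h1, h2⟩
        have hgF := hmem x u h1 h2
        obtain ⟨h3, h4, h5⟩ := hx0 _ hgF
        have hc' := mem_centralizer_singleton_iff.1 (hc x u h1 h2 _ rfl)
        refine Prod.ext ?_ (Subtype.ext ?_)
        · show x0 (x * (y * u) * x⁻¹) * ((x0 (x * (y * u) * x⁻¹))⁻¹ * x) = x
          group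
        · show ((x0 (x * (y * u) * x⁻¹))⁻¹ * x)⁻¹ * u0 (x * (y * u) * x⁻¹) * ((x0 (x * (y * u) * x⁻¹))⁻¹ * x) = u
          set g := x * (y * u) * x⁻¹ with hg
          have h6 : y * u0 g = (x0 g)⁻¹ * g * x0 g := by
            have h6' : (x0 g)⁻¹ * g * x0 g = (x0 g)⁻¹ * (x0 g * (y * u0 g) * (x0 g)⁻¹) * x0 g :=
              congrArg (fun z => (x0 g)⁻¹ * z * x0 g) h5
            rw [h6']; group
          have h7 : u0 g = y⁻¹ * ((x0 g)⁻¹ * g * x0 g) := by rw [← h6]; group
          rw [h7]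
          have h8 : (x0 g)⁻¹ * x * y = y * ((x0 g)⁻¹ * x) := hc'
          have h9 : ((x0 g)⁻¹ * x)⁻¹ * y⁻¹ = y⁻¹ * ((x0 g)⁻¹ * x)⁻¹ := by
            rw [← mul_inv_rev, ← mul_inv_rev, ← h8]
          calc ((x0 g)⁻¹ * x)⁻¹ * (y⁻¹ * ((x0 g)⁻¹ * g * x0 g)) * ((x0 g)⁻¹ * x)
              = (((x0 g)⁻¹ * x)⁻¹ * y⁻¹) * ((x0 g)⁻¹ * g * x0 g) * ((x0 g)⁻¹ * x) := by group
            _ = (y⁻¹ * ((x0 g)⁻¹ * x)⁻¹) * ((x0 g)⁻¹ * g * x0 g) * ((x0 g)⁻¹ * x) := by rw [h9]
            _ = y⁻¹ * (x⁻¹ * g * x) := by group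
            _ = u := by rw [hg]; group
      right_inv := by
        rintro ⟨⟨g, hg⟩, ⟨c, hc1⟩⟩
        obtain ⟨h3, h4, h5⟩ := hx0 g hg
        have h6 := mem_centralizer_singleton_iff.1 hc1
        have h7 : x0 g * c * (y * (c⁻¹ * u0 g * c)) * (x0 g * c)⁻¹ = g := by
          conv_rhs => rw [h5]
          calc x0 g * c * (y * (c⁻¹ * u0 g * c)) * (x0 g * c)⁻¹ = x0 g * ((c * y) * c⁻¹) * u0 g * (x0 g)⁻¹ := by group
            _ = x0 g * ((y * c) * c⁻¹) * u0 g * (x0 g)⁻¹ := by rw [h6]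
            _ = _ := by group
        refine Prod.ext (Subtype.ext h7) (Subtype.ext ?_)
        show (x0 (x0 g * c * (y * (c⁻¹ * u0 g * c)) * (x0 g * c)⁻¹))⁻¹ * (x0 g * c) = c
        rw [h7]
        group }
  have h := Nat.card_congr e
  rw [Nat.card_prod, Nat.card_prod, card_uu hp hy hC hps, hC] at h
  have h2 : (p * Nat.card (Fib y s)) * s = Nat.card G * s := by
    rw [h]; ring
  exact Nat.eq_of_mul_eq_mul_right hs h2

end Fib

section Classes

variable {G : Type u} [Group G] [Finite G]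

/-- the number of elements in disjoint unions -/
theorem sum_card_le {ι : Type*} [Fintype ι] {A : Set G} (B : ι → Set G) (hB : ∀ i, B i ⊆ A)
    (hd : ∀ i j, i ≠ j → Disjoint (B i) (B j)) : ∑ i, Nat.card (B i) ≤ Nat.card A := by
  classical
  have e : Nat.card (Σ i, B i) = ∑ i, Nat.card (B i) := Nat.card_sigma
  rw [← e]
  refine Nat.card_le_card_of_injective (fun x : Σ i, B i => (⟨x.2, hB x.1 x.2.2⟩ : A)) ?_
  rintro ⟨i, x, hx⟩ ⟨j, y, hy⟩ hxy
  have h : x = y := congrArg Subtype.val hxy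
  subst h
  have hij : i = j := by
    by_contra hne
    exact Set.disjoint_left.1 (hd i j hne) hx hy
  subst hij
  rfl

/-- the size of a class -/
theorem card_class_mul (g : G) : Nat.card {x // IsConj g x} * Nat.card (centralizer ({g} : Set G)) = Nat.card G := by
  rw [← Blocks.ClassScalar.index_centralizer]
  exact Subgroup.index_mul_card _

/-- **lower bound for the density**: disjoint subsets with `|G| ≤ m_i |B_i|` -/
theorem le_dens_sets [Fintype G] {ι : Type*} [Fintype ι] {A : Set G} (B : ι → Set G) (m : ι → ℕ) (hB : ∀ i, B i ⊆ A)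
    (hd : ∀ i j, i ≠ j → Disjoint (B i) (B j)) (hm : ∀ i, Nat.card G ≤ m i * Nat.card (B i)) :
    ∑ i, (1 : ℝ) / m i ≤ dens A := by
  have hG : (0 : ℝ) < Nat.card G := by exact_mod_cast Nat.card_pos
  unfold dens
  rw [le_div_iff₀ hG, Finset.sum_mul]
  have h1 : ((∑ i, Nat.card (B i) : ℕ) : ℝ) ≤ Nat.card A := by exact_mod_cast sum_card_le B hB hd
  refine le_trans ?_ h1
  push_cast
  refine Finset.sum_le_sum fun i _ => ?_
  have hmi : (0 : ℝ) < m i := by
    have : 0 < m i := Nat.pos_of_ne_zero fun h0 => by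
      have h2 := hm i
      rw [h0, zero_mul] at h2
      exact absurd (Nat.card_pos (α := G)) (by omega)
    exact_mod_cast this
  rw [one_div, ← div_eq_inv_mul, div_le_iff₀ hmi, mul_comm]
  exact_mod_cast hm i

/-- **lower bound for the density**: pairwise non conjugate strongly real elements with `|C(g_i)| ≤ m_i` -/
theorem le_dens [Fintype G] {ι : Type*} [Fintype ι] (g : ι → G) (m : ι → ℕ) (hsr : ∀ i, SR (g i))
    (hnc : ∀ i j, i ≠ j → ¬ IsConj (g i) (g j))
    (hm : ∀ i, Nat.card (centralizer ({g i} : Set G)) ≤ m i) : ∑ i, (1 : ℝ) / m i ≤ dens (SRS G) := by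
  refine le_dens_sets (fun i => {x | IsConj (g i) x}) m (fun i x hx => (hsr i).of_isConj hx) ?_ ?_
  · intro i j hij
    rw [Set.disjoint_left]
    intro x hx hy
    exact hnc i j hij (IsConj.trans hx (IsConj.symm hy))
  · intro i
    rw [← card_class_mul (g i), mul_comm]
    exact Nat.mul_le_mul_right _ (hm i)

/-- the same without real numbers, for `inv4_of_half` -/
theorem half_of_sum [Fintype G] (h : (1 : ℝ) / 2 < dens (SRS G)) : Nat.card G < 2 * Nat.card (SRS G) := by
  have hG : (0 : ℝ) < Nat.card G := by exact_mod_cast Nat.card_pos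
  unfold dens at h
  rw [lt_div_iff₀ hG] at h
  have : (Nat.card G : ℝ) < 2 * Nat.card (SRS G) := by linarith
  exact_mod_cast this

/-- **`p |Fib| = |G|` as a member of a family** -/
theorem card_fib_le {p s : ℕ} (hp : p.Prime) {y : G} (hy : orderOf y = p)
    (hC : Nat.card (centralizer ({y} : Set G)) = p * s) (hps : ¬ p ∣ s) : Nat.card G ≤ p * Nat.card (Fib y s) :=
  (card_fib hp hy hC hps).ge

end Classes

section Prime

variable {G : Type u} [Group G] [Finite G]

/-- an element with square one normalising and not centralising a group of prime order inverts it -/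
theorem inv_of_norm {p : ℕ} (hp : p.Prime) {y i : G} (hy : orderOf y = p) (hi : i * i = 1)
    (hn : i * y * i⁻¹ ∈ zpowers y) (hc : i * y ≠ y * i) : i * y * i⁻¹ = y⁻¹ := by
  obtain ⟨k, hk⟩ := mem_zpowers_iff.1 hn
  have h1 : i * (i * y * i⁻¹) * i⁻¹ = y := by
    calc i * (i * y * i⁻¹) * i⁻¹ = (i * i) * y * (i * i)⁻¹ := by group
      _ = y := by rw [hi]; group
  have h2 : y ^ (k * k) = y := by
    rw [zpow_mul, hk, conj_zpow, hk]
    exact h1
  have h3 : ((p : ℕ) : ℤ) ∣ k * k - 1 := by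
    rw [← hy, orderOf_dvd_iff_zpow_eq_one, zpow_sub, h2, zpow_one, mul_inv_cancel]
  have h4 : ((p : ℕ) : ℤ) ∣ (k - 1) * (k + 1) := by
    rw [show (k - 1) * (k + 1) = k * k - 1 by ring]; exact h3
  rcases (Nat.prime_iff_prime_int.1 hp).dvd_or_dvd h4 with h5 | h5
  · exfalso
    rw [← hy, orderOf_dvd_iff_zpow_eq_one, zpow_sub, zpow_one, mul_inv_eq_one] at h5
    apply hc
    rw [h5] at hk
    calc i * y = (i * y * i⁻¹) * i := by group
      _ = y * i := by rw [← hk]
  · rw [← hy, orderOf_dvd_iff_zpow_eq_one, zpow_add, zpow_one, hk, mul_eq_one_iff_eq_inv] at h5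
    exact h5

/-- an element of prime order with a centralizer of odd order and a normalizer of even order is strongly real -/
theorem sr_of_prime {p : ℕ} (hp : p.Prime) {y : G} (hy : orderOf y = p)
    (hC : ¬ 2 ∣ Nat.card (centralizer ({y} : Set G)))
    (hN : 2 ∣ Nat.card (normalizer ((zpowers y : Subgroup G) : Set G))) : SR y := by
  have h2 : Fact (Nat.Prime 2) := ⟨Nat.prime_two⟩
  obtain ⟨s, hs⟩ := exists_prime_orderOf_dvd_card' (G := ↥(normalizer ((zpowers y : Subgroup G) : Set G))) 2 hN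
  have hss : (s : G) * s = 1 := by
    have h3 : s * s = 1 := by rw [← pow_two, ← hs, pow_orderOf_eq_one]
    exact congrArg Subtype.val h3
  refine ⟨s, hss, inv_of_norm hp hy hss ?_ fun hc => hC ?_⟩
  · exact (mem_normalizer_iff.1 s.2 y).1 (mem_zpowers y)
  · have h4 : (s : G) ∈ centralizer ({y} : Set G) := mem_centralizer_singleton_iff.2 hc
    have h5 := Subgroup.orderOf_dvd_natCard _ h4
    rwa [Subgroup.orderOf_coe, hs] at h5

end Prime

end Cfsg.Agent.H90.Four
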