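import Cfsg.Agent.H90.Four.Density
import Cfsg.Agent.H581.SR.JOne
import Cfsg.Agent.H581.SR.JTwo
import Cfsg.Agent.H1.J1Real
import Cfsg.Agent.H306.J2.Amb

/-!
# S4171: the rows `J₁`, `J₂` (helper90): all elements are strongly real
-/

set_option autoImplicit false

namespace Cfsg.Agent.H90.Four

open Cfsg.Agent.H721.SR Cfsg.Agent.H777.Ore

universe u

theorem four_j1 {K : Type u} [Group K] (h : Cfsg.Spor.IsoJ1 K) : Inv4 K := by
  refine inv4_of_sr (Cfsg.Agent.H581.SR.rr_j1 h fun g => ?_)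
  obtain ⟨e⟩ := h
  obtain ⟨x, hx⟩ := (Cfsg.Agent.H1.J1Real.real (e g)).map e.symm.toMonoidHom
  refine isConj_iff.2 ⟨x, ?_⟩
  simpa using hx

theorem four_j2 {K : Type u} [Group K] (h : Cfsg.Spor.IsoJ2 K) : Inv4 K := by
  obtain ⟨e⟩ := h
  have h1 : Finite Cfsg.Spor.J2 :=
    Nat.finite_of_card_ne_zero (by rw [Cfsg.Agent.S1619.result.2.2.2]; norm_num)
  have : Finite K := Finite.of_equiv _ e.symm.toEquiv
  exact inv4_of_sr (Cfsg.Agent.H581.SR.rr_j2 ⟨e⟩ fun g => Cfsg.Agent.H306.J2.ambivalent ⟨e⟩ g)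

end Cfsg.Agent.H90.Four
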